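import Cfsg.Agent.Lib.Helper67.Elus.Defs

set_option autoImplicit false

namespace Cfsg.Agent.Lib.Helper67.Elus

variable {F : Type*} [Field F] {V : Type*} [AddCommGroup V] [Module F V]

/-- the fibre of `s ↦ span (range s)` over `W` -/
theorem card_fibre_CNT1 [Fintype F] [Finite V] (k : ℕ) (W : Submodule F V)
    (hW : Module.finrank F W = k) :
    Nat.card {s : {s : Fin k → V // LinearIndependent F s} //
        Submodule.span F (Set.range s.1) = W} =
      ∏ j : Fin k, (Fintype.card F ^ k - Fintype.card F ^ (j : ℕ)) := by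
  have h1 := card_linearIndependent (K := F) (V := W) (k := k) hW.ge
  rw [hW] at h1
  rw [← h1]
  refine Nat.card_congr ⟨fun s => ⟨fun i => ⟨s.1.1 i, ?_⟩, ?_⟩,
    fun s => ⟨⟨fun i => (s.1 i : V), ?_⟩, ?_⟩, ?_, ?_⟩
  · exact s.2.le (Submodule.subset_span (s := Set.range s.1.1) ⟨i, rfl⟩)
  · apply LinearIndependent.of_comp W.subtype
    exact s.1.2
  · exact s.2.map' W.subtype (Submodule.ker_subtype W)
  · have hli : LinearIndependent F (fun i => (s.1 i : V)) :=
      s.2.map' W.subtype (Submodule.ker_subtype W)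
    apply Submodule.eq_of_le_of_finrank_eq
    · rw [Submodule.span_le]
      rintro _ ⟨i, rfl⟩
      exact (s.1 i).2
    · rw [finrank_span_eq_card hli, hW, Fintype.card_fin]
  · intro s; rfl
  · intro s; rfl

theorem cnt_mul_gen_CNT1 [Fintype F] [Finite V] (k : ℕ) (hk : k ≤ Module.finrank F V) :
    Nat.card {W : Submodule F V // Module.finrank F W = k} *
        ∏ j : Fin k, (Fintype.card F ^ k - Fintype.card F ^ (j : ℕ)) =
      ∏ j : Fin k, (Fintype.card F ^ (Module.finrank F V) - Fintype.card F ^ (j : ℕ)) := by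
  classical
  have : Finite (Submodule F V) := Finite.of_injective (fun W => (W : Set V)) SetLike.coe_injective
  have : Fintype {W : Submodule F V // Module.finrank F W = k} := Fintype.ofFinite _
  rw [← card_linearIndependent (K := F) (V := V) hk]
  let φ : {s : Fin k → V // LinearIndependent F s} → {W : Submodule F V // Module.finrank F W = k} :=
    fun s => ⟨Submodule.span F (Set.range s.1), by
      rw [finrank_span_eq_card s.2, Fintype.card_fin]⟩
  rw [← Nat.card_congr (Equiv.sigmaFiberEquiv φ), Nat.card_sigma]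
  have hf : ∀ W : {W : Submodule F V // Module.finrank F W = k},
      Nat.card {s // φ s = W} = ∏ j : Fin k, (Fintype.card F ^ k - Fintype.card F ^ (j : ℕ)) := by
    intro W
    rw [← card_fibre_CNT1 k W.1 W.2]
    refine Nat.card_congr (Equiv.subtypeEquivRight ?_)
    intro s
    exact Subtype.ext_iff
  rw [Finset.sum_congr rfl (fun W _ => hf W), Finset.sum_const, smul_eq_mul, Finset.card_univ,
    Nat.card_eq_fintype_card]

theorem cnt_mul [Fintype F] (N k : ℕ) (hk : k ≤ N) :
    cnt F N k * ∏ j : Fin k, (Fintype.card F ^ k - Fintype.card F ^ (j : ℕ)) =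
      ∏ j : Fin k, (Fintype.card F ^ N - Fintype.card F ^ (j : ℕ)) := by
  have h := cnt_mul_gen_CNT1 (F := F) (V := Fin N → F) k (by simpa using hk)
  rw [Module.finrank_fin_fun] at h
  exact h

end Cfsg.Agent.Lib.Helper67.Elus
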