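/-
helper67: rows S5949, S5951 (elements of prime order modulo scalars of SL_n(q) acting on subspaces
and flags).  Shared vocabulary.
-/
import Mathlib

set_option autoImplicit false

namespace Cfsg.Agent.Lib.Helper67.Elus

/-- `W` is invariant under `T` -/
def Inv {F : Type*} [Field F] {V : Type*} [AddCommGroup V] [Module F V] (T : Module.End F V)
    (W : Submodule F V) : Prop := ∀ w ∈ W, T w ∈ W

/-- the fixed space of `T` -/
def Fx {F : Type*} [Field F] {V : Type*} [AddCommGroup V] [Module F V] (T : Module.End F V) :
    Submodule F V := LinearMap.ker (T - 1)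

/-- the order of `q = |F|` modulo `r` -/
noncomputable def oq (F : Type*) [Fintype F] (r : ℕ) : ℕ := orderOf ((Fintype.card F : ℕ) : ZMod r)

/-- the number of `k`-dimensional subspaces of `F^N` -/
noncomputable def cnt (F : Type*) [Field F] (N k : ℕ) : ℕ :=
  Nat.card {W : Submodule F (Fin N → F) // Module.finrank F W = k}

end Cfsg.Agent.Lib.Helper67.Elus
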